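import Cfsg.Agent.H479.AS.AntiLin
import Cfsg.Agent.H479.AS.AntiCnt
import Cfsg.Agent.H199.PslAut

/-!
# `AS2` for `PSL_6(2)` and `PSL_4(3)` (helper479)

Antiflags: an element `y` of prime order `r`, `q` of order `n - 1` modulo `r`, has a fixed line `L` and an invariant hyperplane
`H`; a solvable group `⟨x, y⟩` leaves `L` or `H` invariant, and if `x` has an eigenspace of codimension `1`, then `L` is the centre or
`H` the axis of `x`. Counting shows that for each automorphism `x ≠ 1` less than half of the antiflags are bad.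
-/

set_option autoImplicit false
set_option linter.unusedSectionVars false

namespace Cfsg.Agent.H479.AS

open Module Cfsg.Agent.H518.DghpFix Cfsg.Agent.H518.DghpPrim Cfsg.Agent.H518.DghpMat Cfsg.Agent.H518.SU
open Cfsg.Agent.ClassicalGeometry.AutPSL.Root Cfsg.Agent.ClassicalGeometry.AutPSL.Auto
  Cfsg.Agent.ClassicalGeometry.AutPSL.Main Matrix Cfsg.Agent.H199.PslAut

universe u v w

section

variable {F : Type} [Field F] [Fintype F] {n : ℕ}

theorem ncard_units : ({c | c ≠ 0} : Set F).ncard = Fintype.card F - 1 := by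
  classical
  have h1 : ({v | v ≠ 0} : Set F) = ({0} : Set F)ᶜ := by
    ext w
    simp
  have h2 := Set.ncard_add_ncard_compl ({0} : Set F)
  rw [Set.ncard_singleton, Nat.card_eq_fintype_card] at h2
  rw [h1]
  omega

theorem ncard_sub_le (W : Submodule F (Fin n → F)) {k : ℕ} (hW : finrank F W ≤ k) :
    ({v | v ≠ 0 ∧ v ∈ W} : Set (Fin n → F)).ncard ≤ Fintype.card F ^ k - 1 := by
  classical
  have h1 : ({v | v ≠ 0 ∧ v ∈ W} : Set (Fin n → F)) = (W : Set (Fin n → F)) \ {0} := by
    ext v
    simp only [Set.mem_ofPred_eq, Set.mem_sdiff, SetLike.mem_coe, Set.mem_singleton_iff]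
    exact and_comm
  have h2 : (W : Set (Fin n → F)).ncard ≤ Fintype.card F ^ k := by
    have h3 := Module.natCard_eq_pow_finrank (K := F) (V := W)
    have h4 : (W : Set (Fin n → F)).ncard = Nat.card W := rfl
    rw [h4, h3, Nat.card_eq_fintype_card]
    exact Nat.pow_le_pow_right Fintype.card_pos hW
  rw [h1, Set.ncard_sdiff_singleton_of_mem (W.zero_mem)]
  omega

/-- eigenvectors -/
theorem ncard_eig (B : (Fin n → F) →ₗ[F] (Fin n → F)) (hinj : Function.Injective B) {k : ℕ}
    (hB : ∀ c : F, finrank F (LinearMap.ker (B - c • 1)) ≤ k) :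
    ({v | v ≠ 0 ∧ B v ∈ (F ∙ v : Submodule F (Fin n → F))} : Set (Fin n → F)).ncard ≤
      (Fintype.card F ^ k - 1) * (Fintype.card F - 1) := by
  classical
  rw [← ncard_units]
  let g : (Fin n → F) → F := fun v => if h : ∃ c : F, c • v = B v then h.choose else 0
  have hg : ∀ v, (∃ c : F, c • v = B v) → g v • v = B v := by
    intro v h
    simp only [g, dif_pos h]
    exact h.choose_spec
  refine ncard_le_of_fiber _ g _ _ ?_ fun c hc => ?_
  · rintro v ⟨hv, hv'⟩
    have h1 := hg v (Submodule.mem_span_singleton.1 hv')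
    intro h2
    rw [h2, zero_smul] at h1
    exact hv (hinj (by rw [← h1, map_zero]))
  · refine le_trans (Set.ncard_le_ncard ?_ (Set.toFinite _)) (ncard_sub_le (LinearMap.ker (B - c • 1)) (hB c))
    rintro v ⟨⟨hv, hv'⟩, hvc⟩
    refine ⟨hv, ?_⟩
    have h1 := hg v (Submodule.mem_span_singleton.1 hv')
    rw [hvc] at h1
    rw [LinearMap.mem_ker, LinearMap.sub_apply, LinearMap.smul_apply, Module.End.one_apply, h1, sub_self]

/-- forms vanishing on a hyperplane -/
theorem ncard_ann (W : Submodule F (Fin n → F)) (hW : n ≤ finrank F W + 1) :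
    ({f | f ≠ 0 ∧ ∀ w ∈ W, f ⬝ᵥ w = 0} : Set (Fin n → F)).ncard ≤ Fintype.card F - 1 := by
  classical
  by_cases htop : W = ⊤
  · have h1 : ({f | f ≠ 0 ∧ ∀ w ∈ W, f ⬝ᵥ w = 0} : Set (Fin n → F)) = ∅ := by
      rw [Set.eq_empty_iff_forall_notMem]
      rintro f ⟨hf, h⟩
      apply hf
      apply dotProduct_eq_zero
      intro w
      exact h w (by rw [htop]; trivial)
    rw [h1, Set.ncard_empty]
    exact Nat.zero_le _
  obtain ⟨w0, hw0⟩ : ∃ w0, w0 ∉ W := by
    by_contra hcon
    push Not at hcon
    exact htop (eq_top_iff.2 fun w _ => hcon w)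
  have hsup : W ⊔ (F ∙ w0) = ⊤ := by
    apply Submodule.eq_top_of_finrank_eq
    have h1 : W < W ⊔ (F ∙ w0) := by
      refine lt_of_le_of_ne le_sup_left fun h => hw0 ?_
      rw [h]
      exact Submodule.mem_sup_right (Submodule.mem_span_singleton_self w0)
    have h2 := Submodule.finrank_lt_finrank_of_lt h1
    have h3 := Submodule.finrank_le (W ⊔ (F ∙ w0))
    rw [finrank_fin_fun] at h3 ⊢
    omega
  rw [← ncard_units]
  refine Set.ncard_le_ncard_of_injOn (fun f => f ⬝ᵥ w0) ?_ ?_ (Set.toFinite _)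
  · rintro f ⟨hf, h⟩ h0
    apply hf
    apply dotProduct_eq_zero
    intro w
    have hw : w ∈ W ⊔ (F ∙ w0) := by rw [hsup]; trivial
    obtain ⟨a, ha, b, hb, rfl⟩ := Submodule.mem_sup.1 hw
    obtain ⟨c, rfl⟩ := Submodule.mem_span_singleton.1 hb
    have h0' : f ⬝ᵥ w0 = 0 := h0
    rw [dotProduct_add, h a ha, dotProduct_smul, h0', smul_zero, add_zero]
  · rintro f ⟨hf, h⟩ f' ⟨hf', h'⟩ hff
    have hff' : f ⬝ᵥ w0 = f' ⬝ᵥ w0 := hff
    apply dotProduct_eq
    intro w
    have hw : w ∈ W ⊔ (F ∙ w0) := by rw [hsup]; trivial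
    obtain ⟨a, ha, b, hb, rfl⟩ := Submodule.mem_sup.1 hw
    obtain ⟨c, rfl⟩ := Submodule.mem_span_singleton.1 hb
    rw [dotProduct_add, h a ha, dotProduct_smul, hff', dotProduct_add, h' a ha, dotProduct_smul]

end

section

variable {F : Type} [Field F] [Fintype F] {n : ℕ}

/-- the natural representation of `GL` -/
noncomputable abbrev rhoG (n : ℕ) (F : Type) [Field F] : GL (Fin n) F →* ((Fin n → F) →ₗ[F] (Fin n → F)) :=
  matRep (Units.coeHom (Matrix (Fin n) (Fin n) F))

theorem rhoG_apply (g : GL (Fin n) F) (v : Fin n → F) : rhoG n F g v = g.1 *ᵥ v := rfl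

theorem rhoG_injective : Function.Injective (rhoG n F) := matRep_injective Units.val_injective

theorem rhoG_coe (g : Matrix.SpecialLinearGroup (Fin n) F) : rhoG n F (g : GL (Fin n) F) = rho n F g := rfl

theorem toGL_injective' : Function.Injective
    (Matrix.SpecialLinearGroup.toGL : Matrix.SpecialLinearGroup (Fin n) F →* GL (Fin n) F) := by
  intro a b h
  apply Subtype.ext
  exact congrArg Units.val h

/-- the kernel of `Psi` is solvable -/
theorem ker_Psi_solvable (hn : 2 ≤ n) : Group.IsSolvable (Psi n F).ker := by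
  refine Group.isSolvable_of_comm fun a b => Subtype.ext ?_
  obtain ⟨u, hu⟩ := (Psi_eq_one_iff hn).1 a.2
  obtain ⟨v, hv⟩ := (Psi_eq_one_iff hn).1 b.2
  show (a : GL (Fin n) F) * b = b * a
  rw [hu, hv, ← map_mul, ← map_mul, mul_comm]

theorem finrank_ker_transpose (A : Matrix (Fin n) (Fin n) F) (c : F) :
    finrank F (LinearMap.ker (Matrix.toLin' Aᵀ - c • 1)) = finrank F (LinearMap.ker (Matrix.toLin' A - c • 1)) := by
  have e : ∀ B : Matrix (Fin n) (Fin n) F, (Matrix.toLin' B - c • 1 : (Fin n → F) →ₗ[F] (Fin n → F)) =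
      Matrix.toLin' (B - c • 1) := by
    intro B
    rw [map_sub, map_smul, Matrix.toLin'_one]
    rfl
  have e2 : (Aᵀ - c • 1 : Matrix (Fin n) (Fin n) F) = (A - c • 1)ᵀ := by
    rw [transpose_sub, transpose_smul, transpose_one]
  have h1 := LinearMap.finrank_range_add_finrank_ker (Matrix.toLin' (A - c • 1))
  have h2 := LinearMap.finrank_range_add_finrank_ker (Matrix.toLin' (A - c • 1)ᵀ)
  have h3 : finrank F (LinearMap.range (Matrix.toLin' (A - c • 1)ᵀ)) =
      finrank F (LinearMap.range (Matrix.toLin' (A - c • 1))) := Matrix.rank_transpose (A - c • 1)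
  rw [e, e, e2]
  omega

end

section

variable {F : Type} [Field F] [Fintype F] {n : ℕ}

/-- **The antiflag theorem for `AS2`.** -/
theorem as2_anti {p₀ r : ℕ} (hp₀ : p₀.Prime) (hF : Fintype.card F = p₀) (hr : r.Prime) (h5 : 5 ≤ r) (hn4 : 4 ≤ n)
    (he : orderOf ((p₀ : ℕ) : ZMod r) + 1 = n) (hs : n + 1 < r)
    (hnum : 4 * ((p₀ ^ (n - 2) - 1) * (p₀ - 1)) < p₀ ^ n - 1) (hnum2 : 4 * (p₀ - 1) < p₀ ^ n - p₀ ^ (n - 1)) :
    Cfsg.Agent.H965.AS.AS2 (Matrix.ProjectiveSpecialLinearGroup (Fin n) F) := by
  classical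
  have hpf : Fact p₀.Prime := ⟨hp₀⟩
  have hcharP : CharP F p₀ := charP_of_card_eq_prime hF
  have hrq : ¬ r ∣ p₀ := not_dvd_of_orderOf hr rfl (by omega)
  have hrF : ¬ r ∣ Fintype.card F := by rwa [hF]
  have he' : orderOf ((Fintype.card F : ℕ) : ZMod r) + 1 = n := by rw [hF]; exact he
  have hn : finrank F (Fin n → F) = n := by rw [finrank_pi_fin, Fintype.card_fin]
  have hn3 : 3 ≤ n := by omega
  have hrG : r ∣ Nat.card (Matrix.SpecialLinearGroup (Fin n) F) :=
    (dvd_pow_sub_one (q := p₀) (r := r) (n := n - 1) hp₀.one_lt.le (by omega)).trans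
      (pow_sub_one_dvd_card_SL (n := n) hF (j := n - 1) (by omega) (by omega))
  have hker := ker_Psi_solvable (F := F) (n := n) (by omega)
  have hkerS : Group.IsSolvable ((Psi n F).comp
      (Matrix.SpecialLinearGroup.toGL : Matrix.SpecialLinearGroup (Fin n) F →* GL (Fin n) F)).ker := by
    let f : ((Psi n F).comp
      (Matrix.SpecialLinearGroup.toGL : Matrix.SpecialLinearGroup (Fin n) F →* GL (Fin n) F)).ker →* (Psi n F).ker :=
      { toFun := fun g => ⟨Matrix.SpecialLinearGroup.toGL g.1, g.2⟩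
        map_one' := Subtype.ext (map_one _)
        map_mul' := fun a b => Subtype.ext (map_mul _ _ _) }
    exact Group.isSolvable_of_isSolvable_injective (f := f) fun a b hab =>
      Subtype.ext (toGL_injective' (congrArg Subtype.val hab))
  -- the frames
  have hex : ∀ ω : AF n F, ∃ x : Matrix.SpecialLinearGroup (Fin n) F, orderOf x = r ∧
      fixS (rho n F x) = (F ∙ ω.1.1 : Submodule F (Fin n → F)) ∧
      LinearMap.range (rho n F x - 1) = LinearMap.ker (dl ω.1.2) := fun ω =>
    exists_anti hr hrF hn3 he' hrG (isCompl_ker (f := dl ω.1.2) (v := ω.1.1) ω.2) (finrank_span_singleton ω.v_ne)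
  choose s hso hsf hsr using hex
  have hcardAF := card_AF (F := F) (n := n)
  rw [hF] at hcardAF
  set m := p₀ ^ n - p₀ ^ (n - 1) with hm
  set N := p₀ ^ n - 1 with hN
  have hNpos : 0 < N := by omega
  have hmpos : 0 < m := by omega
  have hfld : ∀ σ : F ≃+* F, fld (ι := Fin n) σ = 1 := by
    intro σ
    have h1 : Nat.card (F ≃+* F) = 1 := Lib.FieldAutCard.card_ringAut (p := p₀) le_rfl (by rw [hF, pow_one])
    have h2 : Subsingleton (F ≃+* F) := (Nat.card_eq_one_iff_unique.1 h1).1
    rw [Subsingleton.elim σ 1, map_one]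
  refine of_frames (fun ω => pr (s ω)) fun x hx => ?_
  rcases surj_three p₀ hn3 x with ⟨A, σ, hA⟩ | ⟨A, σ, hA⟩
  · -- the linear case
    rw [hfld, mul_one] at hA
    have hA' : x = Psi n F A := hA
    have hsolv : ∀ ω : AF n F, Group.IsSolvable (Subgroup.closure ({x, MulAut.conj (pr (s ω))} : Set (MulAut _))) →
        Group.IsSolvable (Subgroup.closure ({A, ((s ω : Matrix.SpecialLinearGroup (Fin n) F) : GL (Fin n) F)} :
          Set (GL (Fin n) F))) := by
      intro ω h
      apply solvable_of_map (Psi n F) hker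
      rw [MonoidHom.map_closure, Set.image_pair, Psi_coe, ← hA']
      exact h
    have hgo : ∀ ω : AF n F, orderOf ((s ω : Matrix.SpecialLinearGroup (Fin n) F) : GL (Fin n) F) = r := by
      intro ω
      rw [← hso ω]
      exact orderOf_injective (Matrix.SpecialLinearGroup.toGL : Matrix.SpecialLinearGroup (Fin n) F →* GL (Fin n) F)
        toGL_injective' (s ω)
    by_cases hbig : ∃ c : F, n ≤ finrank F (LinearMap.ker (rhoG n F A - c • 1)) + 1
    · obtain ⟨c, hc⟩ := hbig
      have hAc : rhoG n F A ≠ c • 1 := by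
        intro h
        apply hx
        rw [hA, cj_eq_one_of_lines (A := A), map_one]
        intro v
        have h1 : A.1 *ᵥ v = c • v := by
          rw [← rhoG_apply, h]
          rfl
        rw [h1]
        exact Submodule.smul_mem _ _ (Submodule.mem_span_singleton_self v)
      refine ⟨{ω | ω.1.1 ∈ {v | v ≠ 0 ∧ v ∈ LinearMap.range (rhoG n F A - c • 1)} ∨
        ω.1.2 ∈ {f | f ≠ 0 ∧ ∀ w ∈ LinearMap.ker (rhoG n F A - c • 1), f ⬝ᵥ w = 0}}, fun ω h => ?_, ?_⟩
      · rcases anti_homology (rhoG n F) rhoG_injective hr (by omega) hrF hn hn4 he' hs (hgo ω) (hsolv ω h)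
          (Subgroup.subset_closure (by simp)) (Subgroup.subset_closure (by simp)) hc hAc with h1 | h1
        · left
          refine ⟨ω.v_ne, ?_⟩
          rw [h1, rhoG_coe, hsf]
          exact Submodule.mem_span_singleton_self _
        · right
          refine ⟨ω.f_ne, fun w hw => ?_⟩
          rw [h1, rhoG_coe, hsr] at hw
          exact hw
      · have h1 := ncard_B {v | v ≠ 0 ∧ v ∈ LinearMap.range (rhoG n F A - c • 1)}
          {f | f ≠ 0 ∧ ∀ w ∈ LinearMap.ker (rhoG n F A - c • 1), f ⬝ᵥ w = 0}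
        have h2 := ncard_ann (LinearMap.ker (rhoG n F A - c • 1)) hc
        have h3 := LinearMap.finrank_range_add_finrank_ker (rhoG n F A - c • 1)
        have h4 := ncard_sub_le (k := 1) (LinearMap.range (rhoG n F A - c • 1)) (by omega)
        rw [hF, pow_one] at h4
        rw [hF] at h1 h2
        rw [← hm] at h1
        have h5 : (1 : ℕ) ≤ p₀ ^ (n - 2) - 1 := by
          have h6 : p₀ ^ 2 ≤ p₀ ^ (n - 2) := Nat.pow_le_pow_right hp₀.pos (by omega)
          have h7 : 2 ^ 2 ≤ p₀ ^ 2 := Nat.pow_le_pow_left hp₀.two_le 2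
          omega
        have h6 : 4 * (p₀ - 1) < N := by
          refine lt_of_le_of_lt ?_ hnum
          refine Nat.mul_le_mul_left 4 ?_
          exact Nat.le_mul_of_pos_left _ h5
        refine lt_of_le_of_lt (Nat.mul_le_mul_left 2 (h1.trans (Nat.mul_le_mul_left m (Nat.add_le_add h4 h2)))) ?_
        refine lt_of_lt_of_le ?_ hcardAF
        calc 2 * (m * (p₀ - 1 + (p₀ - 1))) = m * (4 * (p₀ - 1)) := by ring
          _ < m * N := Nat.mul_lt_mul_of_pos_left h6 hmpos
    · push Not at hbig
      refine ⟨{ω | ω.1.1 ∈ {v | v ≠ 0 ∧ rhoG n F A v ∈ (F ∙ v : Submodule F (Fin n → F))} ∨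
        ω.1.2 ∈ {f | f ≠ 0 ∧ Matrix.toLin' A.1ᵀ f ∈ (F ∙ f : Submodule F (Fin n → F))}}, fun ω h => ?_, ?_⟩
      · rcases anti_fix (rhoG n F) rhoG_injective hr (by omega) hrF hn hn3 he' hs (hgo ω) (hsolv ω h)
          (x := A) (Subgroup.subset_closure (by simp)) (Subgroup.subset_closure (by simp)) with h1 | h1
        · left
          refine ⟨ω.v_ne, ?_⟩
          rw [rhoG_coe, hsf] at h1
          exact h1 _ (Submodule.mem_span_singleton_self _)
        · right
          refine ⟨ω.f_ne, ?_⟩
          rw [rhoG_coe, hsr] at h1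
          by_contra hcon
          obtain ⟨w, hw1, hw2⟩ := exists_dl hcon
          rw [dotProduct_comm] at hw1 hw2
          apply hw1
          rw [Matrix.toLin'_apply, mulVec_transpose, ← dotProduct_mulVec]
          exact h1 w hw2
      · have hAinj : Function.Injective (rhoG n F A) := by
          intro v w hvw
          rw [rhoG_apply, rhoG_apply] at hvw
          have := congrArg (fun w => (A⁻¹ : GL (Fin n) F).1 *ᵥ w) hvw
          simpa only [gl_inv_mulVec] using this
        have hAtinj : Function.Injective (Matrix.toLin' A.1ᵀ) := by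
          intro v w hvw
          rw [Matrix.toLin'_apply, Matrix.toLin'_apply, mulVec_transpose, mulVec_transpose] at hvw
          have h3 := congrArg (fun w => w ᵥ* (A⁻¹ : GL (Fin n) F).1) hvw
          simp only [vecMul_vecMul, ← Units.val_mul, mul_inv_cancel, Units.val_one, vecMul_one] at h3
          exact h3
        have h1 := ncard_B {v | v ≠ 0 ∧ rhoG n F A v ∈ (F ∙ v : Submodule F (Fin n → F))}
          {f | f ≠ 0 ∧ Matrix.toLin' A.1ᵀ f ∈ (F ∙ f : Submodule F (Fin n → F))}
        have h2 := ncard_eig (rhoG n F A) hAinj (k := n - 2) fun c => by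
          have := hbig c
          omega
        have h3 := ncard_eig (Matrix.toLin' A.1ᵀ) hAtinj (k := n - 2) fun c => by
          rw [finrank_ker_transpose]
          have h4 : (rhoG n F A) = Matrix.toLin' A.1 := rfl
          have := hbig c
          rw [h4] at this
          omega
        rw [hF] at h1 h2 h3
        rw [← hm] at h1
        refine lt_of_le_of_lt (Nat.mul_le_mul_left 2 (h1.trans (Nat.mul_le_mul_left m (Nat.add_le_add h2 h3)))) ?_
        refine lt_of_lt_of_le ?_ hcardAF
        calc 2 * (m * ((p₀ ^ (n - 2) - 1) * (p₀ - 1) + (p₀ ^ (n - 2) - 1) * (p₀ - 1))) =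
            m * (4 * ((p₀ ^ (n - 2) - 1) * (p₀ - 1))) := by ring
          _ < m * N := Nat.mul_lt_mul_of_pos_left hnum hmpos
  · -- correlations
    rw [hfld, mul_one] at hA
    have key : ∀ ω : AF n F, Group.IsSolvable (Subgroup.closure ({x, MulAut.conj (pr (s ω))} : Set (MulAut _))) →
        fixS (rho n F (s ω)) = fixS (rho n F ((cj A * itr : MulAut _) (s ω))) ∨
        LinearMap.range (rho n F (s ω) - 1) = LinearMap.range (rho n F ((cj A * itr : MulAut _) (s ω)) - 1) := by
      intro ω h
      set e : MulAut (Matrix.SpecialLinearGroup (Fin n) F) := cj A * itr with he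
      have h4 : Group.IsSolvable
          (Subgroup.closure ({s ω, e (s ω)} : Set (Matrix.SpecialLinearGroup (Fin n) F))) := by
        apply solvable_of_map _ hkerS
        rw [MonoidHom.map_closure, Set.image_pair]
        refine Group.isSolvable_of_isSolvable_injective (f := Subgroup.inclusion (?_ : _ ≤
          Subgroup.closure ({x, MulAut.conj (pr (s ω))} : Set (MulAut _)))) (Subgroup.inclusion_injective _)
        rw [Subgroup.closure_le]
        have h5 : MulAut.conj (pr (s ω)) ∈ Subgroup.closure ({x, MulAut.conj (pr (s ω))} : Set (MulAut _)) :=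
          Subgroup.subset_closure (by simp)
        have h6 : x ∈ Subgroup.closure ({x, MulAut.conj (pr (s ω))} : Set (MulAut _)) :=
          Subgroup.subset_closure (by simp)
        rintro z (rfl | rfl)
        · show Psi n F ((s ω : Matrix.SpecialLinearGroup (Fin n) F) : GL (Fin n) F) ∈ _
          rw [Psi_coe]
          exact h5
        · show Psi n F ((e (s ω) : Matrix.SpecialLinearGroup (Fin n) F) : GL (Fin n) F) ∈ _
          rw [Psi_coe, ← lift_pr, ← hA]
          have h7 : MulAut.conj (x (pr (s ω))) = x * MulAut.conj (pr (s ω)) * x⁻¹ := by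
            ext v
            simp
          rw [h7]
          exact mul_mem (mul_mem h6 h5) (inv_mem h6)
      exact share_anti (rho n F) (matRep_injective (slHom_injective _ _)) hr (by omega) hrF hn hn3 he' hs (hso ω)
        (by rw [MulEquiv.orderOf_eq, hso]) h4 (Subgroup.subset_closure (by simp)) (Subgroup.subset_closure (by simp))
    let X : (Fin n → F) → Set (Fin n → F) := fun f =>
      {v | v ≠ 0 ∧ v ∈ (F ∙ (A.1 *ᵥ f) : Submodule F (Fin n → F))} ∪
      {v | v ≠ 0 ∧ v ∈ (F ∙ (f ᵥ* A.1) : Submodule F (Fin n → F))}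
    refine ⟨{ω | ω.1.1 ∈ X ω.1.2}, fun ω h => ?_, ?_⟩
    · set v := ω.1.1 with hv
      set a := ω.1.2 with ha
      have ha0 : a ≠ 0 := ω.f_ne
      have hv0 : v ≠ 0 := ω.v_ne
      have hfix := hsf ω
      have hrange := hsr ω
      rw [← hv] at hfix
      rw [← ha] at hrange
      rcases key ω h with h | h
      · -- the fixed line
        left
        refine ⟨hv0, ?_⟩
        have h1 : a ∈ fixS (rho n F (itr (s ω))) := by
          refine mem_fixS_itr fun w => ?_
          have h2 : rho n F (s ω) w - w ∈ LinearMap.range (rho n F (s ω) - 1) := ⟨w, rfl⟩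
          rw [hrange] at h2
          have h3 : a ⬝ᵥ (rho n F (s ω) w - w) = 0 := h2
          rw [dotProduct_sub, sub_eq_zero] at h3
          exact h3
        have h2 : A.1 *ᵥ a ∈ fixS (rho n F ((cj A * itr : MulAut _) (s ω))) := by
          show A.1 *ᵥ a ∈ fixS (rho n F (cj A (itr (s ω))))
          rw [mem_fixS_cj, gl_inv_mulVec]
          exact h1
        rw [← h, hfix] at h2
        obtain ⟨c, hc⟩ := Submodule.mem_span_singleton.1 h2
        have hc0 : c ≠ 0 := by
          rintro rfl
          rw [zero_smul] at hc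
          have h3 := gl_inv_mulVec A a
          rw [← hc, mulVec_zero] at h3
          exact ha0 h3.symm
        rw [← hc]
        refine Submodule.mem_span_singleton.2 ⟨c⁻¹, ?_⟩
        rw [smul_smul, inv_mul_cancel₀ hc0, one_smul]
      · -- the hyperplane
        right
        refine ⟨hv0, ?_⟩
        have hvx : v ∈ fixS (rho n F (s ω)) := by rw [hfix]; exact Submodule.mem_span_singleton_self v
        have h3 : ∀ w, a ⬝ᵥ w = 0 → (v ᵥ* (A⁻¹ : GL (Fin n) F).1) ⬝ᵥ w = 0 := by
          intro w hw
          have h4 : w ∈ LinearMap.range (rho n F (s ω) - 1) := by rw [hrange]; exact hw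
          rw [h] at h4
          have h5 := dotProduct_range_itr hvx _ (mem_range_cj.1 (show w ∈
            LinearMap.range (rho n F (cj A (itr (s ω))) - 1) from h4))
          rwa [dotProduct_mulVec] at h5
        by_contra hcon2
        have h6 : (v ᵥ* (A⁻¹ : GL (Fin n) F).1) ∉ (F ∙ a : Submodule F (Fin n → F)) := by
          intro h7
          apply hcon2
          obtain ⟨c, hc⟩ := Submodule.mem_span_singleton.1 h7
          have h8 : (v ᵥ* (A⁻¹ : GL (Fin n) F).1) ᵥ* A.1 = v := by
            rw [vecMul_vecMul, ← Units.val_mul, inv_mul_cancel, Units.val_one, vecMul_one]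
          show v ∈ (F ∙ (a ᵥ* A.1) : Submodule F (Fin n → F))
          rw [← h8, ← hc, smul_vecMul]
          exact Submodule.smul_mem _ _ (Submodule.mem_span_singleton_self _)
        obtain ⟨w, hw1, hw2⟩ := exists_dl h6
        rw [dotProduct_comm] at hw1 hw2
        exact hw1 (h3 w hw2)
    · have h1 := ncard_C X (2 * (p₀ - 1)) fun f => by
        have h2 : ∀ z : Fin n → F, finrank F (F ∙ z : Submodule F (Fin n → F)) ≤ 1 := fun z => by
          have h3 := finrank_span_le_card (R := F) ({z} : Set (Fin n → F))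
          rwa [Set.toFinset_singleton, Finset.card_singleton] at h3
        have h3 := ncard_sub_le (k := 1) _ (h2 (A.1 *ᵥ f))
        have h4 := ncard_sub_le (k := 1) _ (h2 (f ᵥ* A.1))
        rw [hF, pow_one] at h3 h4
        refine (Set.ncard_union_le _ _).trans ?_
        omega
      rw [hF] at h1
      rw [← hN] at h1
      refine lt_of_le_of_lt (Nat.mul_le_mul_left 2 h1) ?_
      refine lt_of_lt_of_le ?_ hcardAF
      calc 2 * (2 * (p₀ - 1) * N) = 4 * (p₀ - 1) * N := by ring
        _ < m * N := Nat.mul_lt_mul_of_pos_right hnum2 hNpos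

/-- `AS2` for `PSL_6(2)`. -/
theorem as2_psl_six_two (hF : Fintype.card F = 2) :
    Cfsg.Agent.H965.AS.AS2 (Matrix.ProjectiveSpecialLinearGroup (Fin 6) F) := by
  have hord : orderOf ((2 : ℕ) : ZMod 31) = 5 :=
    orderOf_eq_of (by norm_num) (by norm_num) (by norm_num) fun i h1 h2 => by
      interval_cases i <;> norm_num
  exact as2_anti (r := 31) Nat.prime_two hF (by norm_num) (by norm_num) (by norm_num) (by rw [hord]) (by norm_num)
    (by norm_num) (by norm_num)

/-- `AS2` for `PSL_4(3)`. -/
theorem as2_psl_four_three (hF : Fintype.card F = 3) :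
    Cfsg.Agent.H965.AS.AS2 (Matrix.ProjectiveSpecialLinearGroup (Fin 4) F) := by
  have hord : orderOf ((3 : ℕ) : ZMod 13) = 3 :=
    orderOf_eq_of (by norm_num) (by norm_num) (by norm_num) fun i h1 h2 => by
      interval_cases i <;> norm_num
  exact as2_anti (r := 13) Nat.prime_three hF (by norm_num) (by norm_num) (by norm_num) (by rw [hord]) (by norm_num)
    (by norm_num) (by norm_num)

end

end Cfsg.Agent.H479.AS
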