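import Mathlib

/-!
# An element of order 9 of `Sp_4(3)` (helper479)
-/

set_option autoImplicit false

namespace Cfsg.Agent.H479.AS.SpFour

open Matrix

abbrev Ix := Fin 2 ⊕ Fin 2

abbrev Mt := Matrix Ix Ix (ZMod 3)

abbrev V4 := Ix → ZMod 3

def Y0 : Mt := fromBlocks !![1, 1; 0, 1] !![0, 1; 0, 1] 0 !![1, 0; 2, 1]

def Z0 : Mt := fromBlocks 1 !![2, 0; 0, 0] 0 1

/-- the elements moving the line -/
def R0 : Fin 4 → Mt :=
  ![1, fromBlocks !![1, 0; 0, 0] !![0, 0; 0, 2] !![0, 0; 0, 1] !![1, 0; 0, 0],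
    fromBlocks 1 0 !![0, 0; 0, 1] 1, fromBlocks 1 0 !![0, 0; 0, 2] 1]

/-- their inverses -/
def R1 : Fin 4 → Mt :=
  ![1, fromBlocks !![1, 0; 0, 0] !![0, 0; 0, 1] !![0, 0; 0, 2] !![1, 0; 0, 0],
    fromBlocks 1 0 !![0, 0; 0, 2] 1, fromBlocks 1 0 !![0, 0; 0, 1] 1]

set_option maxRecDepth 10000

theorem y_three : Y0 ^ 3 = Z0 := by decide
theorem z_three : Z0 ^ 3 = 1 := by decide
theorem z_ne : Z0 ≠ 1 := by decide
theorem symp_y : Y0 * J (Fin 2) (ZMod 3) * Y0ᵀ = J (Fin 2) (ZMod 3) := by decide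
theorem symp_r : ∀ i, R0 i * J (Fin 2) (ZMod 3) * (R0 i)ᵀ = J (Fin 2) (ZMod 3) := by decide
theorem r_r : ∀ i, R1 i * R0 i = 1 := by decide

/-- the vector `e_0` -/
def c0 : V4 := Pi.single (Sum.inl 0) 1

theorem r_c : ∀ i, R0 i *ᵥ c0 = c0 := by decide

theorem y_c : Y0 *ᵥ c0 = c0 := by decide

theorem n_four : (Y0 - 1) ^ 4 = 0 := by decide
theorem n_three : (Y0 - 1) ^ 3 = fromBlocks 0 !![2, 0; 0, 0] 0 0 := by decide
theorem n_two : (Y0 - 1) ^ 2 = fromBlocks 0 !![2, 1; 2, 0] 0 0 := by decide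

theorem ker_one (v : V4) (h : (Y0 - 1) *ᵥ v = 0) : v (Sum.inl 1) = 0 ∧ v (Sum.inr 0) = 0 ∧ v (Sum.inr 1) = 0 := by
  have h1 := congrFun h (Sum.inl 0)
  have h2 := congrFun h (Sum.inl 1)
  have h3 := congrFun h (Sum.inr 0)
  have h4 := congrFun h (Sum.inr 1)
  revert h1 h2 h3 h4
  simp only [mulVec, dotProduct, Fintype.sum_sum_type, Fin.sum_univ_two]
  generalize v (Sum.inl 0) = a
  generalize v (Sum.inl 1) = b
  generalize v (Sum.inr 0) = c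
  generalize v (Sum.inr 1) = d
  revert a b c d
  decide

end Cfsg.Agent.H479.AS.SpFour
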